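import Cfsg.Agent.H63.SK.Real
import Cfsg.Agent.H669.RO.McL
import Cfsg.Agent.UGT.End.McLOuter
import Cfsg.Agent.TypeM.FactsMcL

/-!
# S3010 (Sidki), the row `McL` (helper63, task 3727)

One class of involutions, `C_K(t) = 2.A₈`, `|Out| = 2`; `x` of order 5 with `|C_K(x)| = 25` is inverted by an involution
(helper669), hence by `t ∈ V ∩ K`. `(T1)` gives `w ∈ V \ K` in `O_2(C_G(t))` (`exists_outer`); `w` acts trivially on
`C_K(t) / ⟨t⟩ = A₈`, so `w` induces an inner automorphism, a contradiction.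
-/

set_option autoImplicit false
set_option linter.unusedVariables false
set_option linter.style.haveILetI false

universe u

open Subgroup Cfsg Equiv

namespace Cfsg.Agent.H63.SK.McL

open Cfsg.Agent.H282.SK Cfsg.Agent.TypeM.Two Cfsg.Agent.TypeM.OuterMcL Cfsg.Agent.SporRec.TwoAn

/-- a normal 2-subgroup of `2.A₈` lies in the centre -/
theorem le_ker {C : Type*} [Group C] (Q : Cover (Fin 8) C) (N : Subgroup C) (hN : N.Normal) (h2 : IsPGroup 2 N) :
    ∀ g ∈ N, Q.π g = 1 := by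
  have hs : IsSimpleGroup (alternatingGroup (Fin 8)) :=
    alternatingGroup.isSimpleGroup (by rw [Nat.card_eq_fintype_card]; simp)
  have hM : (N.map (Cfsg.Agent.SporRec.LyFiveCov.proj Q)).Normal :=
    hN.map _ (Cfsg.Agent.SporRec.LyFiveCov.proj_surjective Q)
  have hM2 : IsPGroup 2 (N.map (Cfsg.Agent.SporRec.LyFiveCov.proj Q)) := h2.map _
  have : Fact (Nat.Prime 2) := ⟨Nat.prime_two⟩
  intro g hg
  have hgM : Cfsg.Agent.SporRec.LyFiveCov.proj Q g ∈ N.map (Cfsg.Agent.SporRec.LyFiveCov.proj Q) :=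
    mem_map_of_mem _ hg
  rcases hs.eq_bot_or_eq_top_of_normal _ hM with h | h
  · rw [h, mem_bot] at hgM
    exact congrArg Subtype.val hgM
  · exfalso
    rw [h] at hM2
    obtain ⟨n, hn⟩ := IsPGroup.iff_card.1 hM2
    rw [Subgroup.card_top] at hn
    have h3 : 2 * Nat.card (alternatingGroup (Fin 8)) = 40320 := by
      rw [two_mul_nat_card_alternatingGroup, Nat.card_perm, Nat.card_eq_fintype_card, Fintype.card_fin]
      decide
    have h4 : 3 ∣ 2 ^ n := by
      rw [← hn]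
      exact ⟨6720, by omega⟩
    have h5 := Nat.prime_three.dvd_of_dvd_pow h4
    norm_num at h5

variable {G : Type u} [Group G] [Finite G] {V K : Subgroup G}

/-- no involution outside `K` lies in `O_2(C_G(t))` -/
theorem not_mem_O2 (h : Cx V K) (L : MT 8 K) (hI : EvenInner L) {w : G} (hwK : w ∉ K) (hww : w * w = 1)
    (hw : w ∈ O2 (centralizer ({(L.t : G)} : Set G))) : False := by
  obtain ⟨φ, hφ, hφK⟩ := exists_aut h w
  have hwt : w * L.t = L.t * w := mem_centralizer_singleton_iff.1 (O2_le _ hw)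
  have hφt : φ L.t = L.t := by
    apply Subtype.ext
    rw [hφ, hwt]
    group
  let C : Subgroup K := centralizer ({L.t} : Set K)
  let N : Subgroup C := (O2 (centralizer ({(L.t : G)} : Set G))).comap (K.subtype.comp C.subtype)
  have hCG : ∀ c : C, ((c : K) : G) ∈ centralizer ({(L.t : G)} : Set G) := by
    intro c
    rw [mem_centralizer_singleton_iff]
    exact congrArg Subtype.val (L.mem_iff.1 c.2)
  have hN : N.Normal := by
    refine ⟨fun n hn c => ?_⟩
    exact conj_mem_O2 (hCG c) hn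
  have hN2 : IsPGroup 2 N := (isPGroup_O2 _).comap_of_injective _ (by
    intro a b hab
    exact Subtype.ext (Subtype.ext hab))
  apply hwK
  apply hφK
  refine hI φ 1 hφt ?_ (map_one _)
  intro g k hk
  have hm : k * g⁻¹ ∈ N := by
    show ((k : K) : G) * ((g : K) : G)⁻¹ ∈ O2 (centralizer ({(L.t : G)} : Set G))
    have h1 : ((k : K) : G) = w * (g : K) * w⁻¹ := by
      rw [← hφ, ← hk]
    rw [h1]
    have h2 : w * ((g : K) : G) * w⁻¹ * ((g : K) : G)⁻¹ = w * (((g : K) : G) * w⁻¹ * ((g : K) : G)⁻¹) := by group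
    rw [h2]
    exact (O2 _).mul_mem hw (conj_mem_O2 (hCG g) ((O2 _).inv_mem hw))
  have h3 := le_ker L.K N hN hN2 _ hm
  rw [map_mul, map_inv, mul_inv_eq_one] at h3
  rw [h3]
  group

/-- **The row `McL` of S3010.** -/
theorem dead : Cfsg.Agent.H282.SK.DeadS.{u} (fun K _ => Cfsg.Spor.IsoMcL K) := by
  intro G _ _ V K h hK
  obtain ⟨hfin, hs, hcard, ⟨L⟩⟩ := TypeM.FactsMcL.facts hK
  have hI : ∀ L' : MT 8 K, EvenInner L' := fun L' =>
    Cfsg.Agent.TypeM.OuterInst.evenInner L' (Or.inl rfl) (Cfsg.Agent.TypeM.FactsAut.gen L' (Or.inl ⟨rfl, hcard⟩))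
  have h2 : ∀ a b : G, a ∉ K → b ∉ K → a * b ∈ K := fun a b ha hb =>
    mul_mem_of_aut h (fun φ ψ hφ hψ => Cfsg.Agent.TypeM.OuterInst.mul_mem_range L (Or.inl rfl)
      (Cfsg.Agent.TypeM.FactsAut.gen L (Or.inl ⟨rfl, hcard⟩)) hφ hψ) ha hb
  refine false_of_real h h2 (fun s t hs hs1 ht ht1 => L.conj_of_involutions hs hs1 ht ht1)
    (Cfsg.Agent.H669.RO.McL.ro_McL hK) ?_
  intro t htK ht ht1 w hwK hww hw
  obtain ⟨L', hL'⟩ := L.exists_rebase (s := ⟨t, htK⟩) (Subtype.ext ht) (fun h' => ht1 (congrArg Subtype.val h'))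
  apply not_mem_O2 h L' (hI L') hwK hww
  rw [hL']
  exact hw

end Cfsg.Agent.H63.SK.McL
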