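import Cfsg.Agent.H282.SK.Tools
import Cfsg.Agent.H101.RealOdd

/-!
# S3010 (Sidki), `|G / K| ≤ 2`: rows with one class of involutions and a real odd element (helper63)

* `mem_of_inner`, `mul_mem_of_aut` : the elements of `G` inducing inner automorphisms of `K` lie in `K`; `G / K` has order
  at most 2 if the product of two outer automorphisms of `K` is inner;
* `exists_outer` : `t ∈ V#` inverts `x ≠ 1` odd which commutes with no involution of `K`: some `w ∈ V \ K` lies in
  `O_2(C_G(t))`;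
* `false_of_real` : `K` with one class of involutions and `RealOdd K`, no involution of `G \ K` in `O_2(C_G(t))`: dead.
-/

set_option autoImplicit false
set_option linter.unusedVariables false
set_option linter.unusedSectionVars false
set_option linter.style.haveILetI false

universe u

open Subgroup Cfsg

namespace Cfsg.Agent.H63.SK

open Cfsg.Agent.H282.SK

variable {G : Type u} [Group G] [Finite G] {V K : Subgroup G}

/-! ### `G / K` -/

/-- an element inducing an inner automorphism of `K` lies in `K` -/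
theorem mem_of_inner (h : Cx V K) {a : G} {k : K} (hk : ∀ y : K, a * y * a⁻¹ = k * y * (k : G)⁻¹) : a ∈ K := by
  have h1 : (k : G)⁻¹ * a = 1 := by
    apply h.eq_one_of_comm
    intro y hy
    have h2 := hk ⟨y, hy⟩
    calc (k : G)⁻¹ * a * y = (k : G)⁻¹ * (a * y * a⁻¹) * a := by group
      _ = (k : G)⁻¹ * (k * y * (k : G)⁻¹) * a := by rw [h2]
      _ = y * ((k : G)⁻¹ * a) := by group
  have h2 : a = k := (inv_mul_eq_one.1 h1).symm
  rw [h2]
  exact k.2

/-- the automorphism of `K` induced by `a` -/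
theorem exists_aut (h : Cx V K) (a : G) : ∃ φ : MulAut K, (∀ y : K, ((φ y : K) : G) = a * y * a⁻¹) ∧
    (φ ∈ (MulAut.conj : K →* MulAut K).range → a ∈ K) := by
  haveI := h.norm
  refine ⟨MulAut.conjNormal a, fun y => MulAut.conjNormal_apply a y, ?_⟩
  rintro ⟨k, hk⟩
  apply mem_of_inner h (k := k)
  intro y
  rw [← MulAut.conjNormal_apply, ← hk, MulAut.conj_apply]
  simp

/-- `|G / K| ≤ 2` -/
theorem mul_mem_of_aut (h : Cx V K) (hA : ∀ φ ψ : MulAut K, φ ∉ (MulAut.conj : K →* MulAut K).range →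
    ψ ∉ (MulAut.conj : K →* MulAut K).range → φ * ψ ∈ (MulAut.conj : K →* MulAut K).range) {a b : G}
    (ha : a ∉ K) (hb : b ∉ K) : a * b ∈ K := by
  obtain ⟨φ, hφ, hφ'⟩ := exists_aut h a
  obtain ⟨ψ, hψ, hψ'⟩ := exists_aut h b
  obtain ⟨k, hk⟩ := hA φ ψ (fun h' => ha (hφ' h')) (fun h' => hb (hψ' h'))
  apply mem_of_inner h (k := k)
  intro y
  have h1 := congrArg (fun χ : MulAut K => ((χ y : K) : G)) hk
  simp only [MulAut.mul_apply, MulAut.conj_apply] at h1
  rw [hφ, hψ] at h1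
  have h2 : ((k * y * k⁻¹ : K) : G) = k * y * (k : G)⁻¹ := by simp
  rw [h2] at h1
  rw [h1]
  group

/-- `V ∩ K ≠ 1` if `|G / K| ≤ 2` -/
theorem exists_inner (h : Cx V K) (h2 : ∀ a b : G, a ∉ K → b ∉ K → a * b ∈ K) : ∃ t ∈ V, t ≠ 1 ∧ t ∈ K := by
  classical
  by_contra hcon
  push Not at hcon
  have h8 := h.card
  have key : ∀ a b : V, a ≠ 1 → b ≠ 1 → a = b := by
    intro a b ha hb
    have ha' : (a : G) ∉ K := hcon a a.2 fun h' => ha (Subtype.ext h')
    have hb' : (b : G) ∉ K := hcon b b.2 fun h' => hb (Subtype.ext h')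
    have h3 := h2 a b ha' hb'
    have h4 : (a : G) * b = 1 := by
      by_contra h5
      exact hcon _ (V.mul_mem a.2 b.2) h5 h3
    have h5 : (a : G) = (b : G)⁻¹ := eq_inv_of_mul_eq_one_left h4
    rw [h.inv_eq b.2] at h5
    exact Subtype.ext h5
  by_cases hex : ∃ a : V, a ≠ 1
  · obtain ⟨a, ha⟩ := hex
    have h3 : (Set.univ : Set V) ⊆ {1, a} := by
      intro b _
      by_cases hb : b = 1
      · exact Or.inl hb
      · exact Or.inr (key b a hb ha)
    have h4 := Set.ncard_le_ncard h3 (Set.toFinite _)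
    rw [Set.ncard_univ] at h4
    have h5 := Set.ncard_insert_le (1 : V) {a}
    rw [Set.ncard_singleton] at h5
    omega
  · push Not at hex
    have : Subsingleton V := ⟨fun a b => (hex a).trans (hex b).symm⟩
    have h3 : Nat.card V = 1 := Nat.card_unique
    omega

/-! ### The main step -/

/-- no involution of `K` commutes with `x` -/
def NoInv (K : Subgroup G) (x : G) : Prop := ∀ w ∈ K, w * w = 1 → Commute w x → w = 1

theorem NoInv.eq_one {x w : G} (h : NoInv K x) (hw : w ∈ K) (hc : Commute w x) {k : ℕ} (hk : w ^ 2 ^ k = 1) :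
    w = 1 := by
  induction k with
  | zero => simpa using hk
  | succ k ih =>
    apply ih
    apply h _ (pow_mem hw _)
    · rw [← pow_add]
      rw [pow_succ] at hk
      rwa [← two_mul, mul_comm]
    · exact hc.pow_left _

/-- `t ∈ V#` inverts `x ≠ 1` odd which commutes with no involution of `K`: some `w ∈ V \ K` lies in `O_2(C_G(t))` -/
theorem exists_outer (h : Cx V K) (h2 : ∀ a b : G, a ∉ K → b ∉ K → a * b ∈ K) {t x : G} (ht : t ∈ V) (ht1 : t ≠ 1)
    (hx : Odd (orderOf x)) (hx1 : x ≠ 1) (hi : t * x * t⁻¹ = x⁻¹) (hn : NoInv K x) :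
    ∃ w ∈ V, w ∉ K ∧ w * w = 1 ∧ Commute w x ∧ w ∈ O2 (centralizer ({t} : Set G)) := by
  obtain ⟨z, hzV, hz1, hzx, hzO⟩ := h.t1 ht ht1 hx hi
  have hzK : z ∉ K := fun hK => hz1 (hn z hK (h.sq hzV) hzx)
  have hu : ∀ w ∈ O2 (centralizer ({t} : Set G) ⊓ centralizer ({x} : Set G)), w ≠ 1 → w * w = 1 → w = z := by
    intro w hw hw1 hww
    have hwx : Commute w x := mem_centralizer_singleton_iff.1 (mem_inf.1 (O2_le _ hw)).2
    have hwK : w ∉ K := fun hK => hw1 (hn w hK hww hwx)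
    have h3 : w * z ∈ K := h2 w z hwK hzK
    obtain ⟨k, hk⟩ := isPGroup_O2 _ ⟨w * z, (O2 _).mul_mem hw hzO⟩
    have h4 : w * z = 1 := hn.eq_one h3 (hwx.mul_left hzx) (k := k) (congrArg Subtype.val hk)
    rw [eq_inv_of_mul_eq_one_left h4, h.inv_eq hzV]
  obtain ⟨-, -, -, -, h5⟩ := h.bprime_O2 ht ht1 hx hx1 hi hu
  exact ⟨z, hzV, hzK, h.sq hzV, hzx, h5⟩

/-- an involution inverting the real element -/
theorem exists_of_realOdd {X : Type*} [Group X] [Finite X] (h : H101.RO.RealOdd X) :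
    ∃ x s : X, x ≠ 1 ∧ Odd (orderOf x) ∧ s * s = 1 ∧ s * x * s⁻¹ = x⁻¹ ∧
      ∀ w : X, w * w = 1 → Commute w x → w = 1 := by
  obtain ⟨x, p, k, hp, hp2, hk, hx, hc, hodd⟩ := h
  have hox : Odd (orderOf x) := by
    rw [hx]; exact (hp.odd_of_ne_two hp2).pow
  have hx1 : x ≠ 1 := by
    rintro rfl
    rw [orderOf_one] at hx
    have := Nat.one_lt_pow (by omega : k ≠ 0) hp.one_lt
    omega
  obtain ⟨g, hg⟩ := isConj_iff.1 hc
  have hgg : g * g ∈ centralizer ({x} : Set X) := by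
    rw [mem_centralizer_singleton_iff]
    have h1 : g * x⁻¹ * g⁻¹ = x := by
      calc g * x⁻¹ * g⁻¹ = (g * x * g⁻¹)⁻¹ := by group
        _ = x := by rw [hg, inv_inv]
    calc g * g * x = g * (g * x * g⁻¹) * g := by group
      _ = g * x⁻¹ * g⁻¹ * (g * g) := by rw [hg]; group
      _ = x * (g * g) := by rw [h1]
  have hpow : (g * g) ^ Nat.card (centralizer ({x} : Set X)) = 1 := by
    have := pow_card_eq_one' (x := (⟨g * g, hgg⟩ : centralizer ({x} : Set X)))
    exact congrArg Subtype.val this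
  obtain ⟨m, hm⟩ := hodd
  refine ⟨x, g ^ Nat.card (centralizer ({x} : Set X)), hx1, hox, ?_, ?_, ?_⟩
  · rw [← pow_add, ← two_mul, pow_mul, pow_two]
    exact hpow
  · have h2 : (g * g) ^ m * x = x * (g * g) ^ m :=
      ((show Commute (g * g) x from mem_centralizer_singleton_iff.1 hgg).pow_left m).eq
    have h3 : g ^ Nat.card (centralizer ({x} : Set X)) = g * (g * g) ^ m := by
      rw [hm, pow_succ', pow_mul, pow_two]
    rw [h3]
    calc g * (g * g) ^ m * x * (g * (g * g) ^ m)⁻¹ = g * ((g * g) ^ m * x) * ((g * g) ^ m)⁻¹ * g⁻¹ := by group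
      _ = g * (x * (g * g) ^ m) * ((g * g) ^ m)⁻¹ * g⁻¹ := by rw [h2]
      _ = g * x * g⁻¹ := by group
      _ = x⁻¹ := hg
  · intro w hw hwx
    have h1 : w ∈ centralizer ({x} : Set X) := mem_centralizer_singleton_iff.2 hwx.eq
    have h2 : orderOf (⟨w, h1⟩ : centralizer ({x} : Set X)) ∣ 2 :=
      orderOf_dvd_of_pow_eq_one (Subtype.ext (by rw [Subgroup.coe_pow, pow_two]; exact hw))
    have h3 : Odd (orderOf (⟨w, h1⟩ : centralizer ({x} : Set X))) := Odd.of_dvd_nat ⟨m, hm⟩ (orderOf_dvd_natCard _)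
    rcases (Nat.dvd_prime Nat.prime_two).1 h2 with h4 | h4
    · have := orderOf_eq_one_iff.1 h4
      exact congrArg Subtype.val this
    · rw [h4] at h3
      exact absurd h3 (by decide)

/-- **Rows with one class of involutions and a real odd element with centraliser of odd order**, `|G / K| ≤ 2`. -/
theorem false_of_real (h : Cx V K) (h2 : ∀ a b : G, a ∉ K → b ∉ K → a * b ∈ K)
    (hone : ∀ s t : K, s * s = 1 → s ≠ 1 → t * t = 1 → t ≠ 1 → ∃ g : K, g * s * g⁻¹ = t)
    (hR : H101.RO.RealOdd K)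
    (hO : ∀ t ∈ K, t * t = 1 → t ≠ 1 → ∀ w : G, w ∉ K → w * w = 1 → w ∉ O2 (centralizer ({t} : Set G))) : False := by
  obtain ⟨t, ht, ht1, htK⟩ := exists_inner h h2
  obtain ⟨x, s, hx1, hxo, hss, hsx, hn⟩ := exists_of_realOdd hR
  have hs1 : s ≠ 1 := by
    rintro rfl
    apply hx1
    apply S3011.eq_one_of_odd_of_inv hxo
    rw [← hsx]; group
  obtain ⟨g, hg⟩ := hone s ⟨t, htK⟩ hss hs1 (Subtype.ext (h.sq ht)) (fun h' => ht1 (congrArg Subtype.val h'))
  have hgt : ((g : G) * s * (g : G)⁻¹) = t := congrArg Subtype.val hg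
  have hsx' : (s : G) * x * (s : G)⁻¹ = (x : G)⁻¹ := congrArg Subtype.val hsx
  obtain ⟨w, -, hwK, hww, -, hwO⟩ := exists_outer h h2 ht ht1 (x := g * x * (g : G)⁻¹) (by
      have : orderOf ((g : G) * x * (g : G)⁻¹) = orderOf (x : G) := by
        simpa using MulEquiv.orderOf_eq (MulAut.conj (g : G)) (x : G)
      rw [this, Subgroup.orderOf_coe]
      exact hxo) (by
      intro h'
      apply hx1
      apply Subtype.ext
      have : (x : G) = (g : G)⁻¹ * (g * x * (g : G)⁻¹) * g := by group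
      rw [this, h']; simp) (by
      rw [← hgt]
      calc (g : G) * s * (g : G)⁻¹ * (g * x * (g : G)⁻¹) * (g * s * (g : G)⁻¹)⁻¹
          = g * (s * x * (s : G)⁻¹) * (g : G)⁻¹ := by group
        _ = (g * x * (g : G)⁻¹)⁻¹ := by rw [hsx']; group) (by
      intro w hwK hww hwx
      have h3 : (g : G)⁻¹ * w * g = 1 := by
        have h4 := hn (g⁻¹ * ⟨w, hwK⟩ * g) (by
          calc g⁻¹ * ⟨w, hwK⟩ * g * (g⁻¹ * ⟨w, hwK⟩ * g) = g⁻¹ * (⟨w, hwK⟩ * ⟨w, hwK⟩) * g := by group
            _ = 1 := by rw [show (⟨w, hwK⟩ * ⟨w, hwK⟩ : K) = 1 from Subtype.ext hww]; group) (by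
          apply Subtype.ext
          show (g : G)⁻¹ * w * g * x = x * ((g : G)⁻¹ * w * g)
          calc (g : G)⁻¹ * w * g * x = (g : G)⁻¹ * (w * (g * x * (g : G)⁻¹)) * g := by group
            _ = (g : G)⁻¹ * ((g * x * (g : G)⁻¹) * w) * g := by rw [hwx.eq]
            _ = _ := by group)
        exact congrArg Subtype.val h4
      have : w = g * ((g : G)⁻¹ * w * g) * (g : G)⁻¹ := by group
      rw [this, h3]; group)
  exact hO t htK (h.sq ht) ht1 w hwK hww hwO

end Cfsg.Agent.H63.SK
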